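import Mathlib
import Cfsg.Agent.FUS.HK.P32a
import Cfsg.Agent.FUS.Aut

/-!
Coordinates on a group isomorphic to the holomorph of the cyclic group of order eight.
-/

set_option autoImplicit false
set_option linter.unusedSectionVars false
set_option maxRecDepth 100000

namespace CL.Hen.P32
open Cfsg Cfsg.FusionSystem CL.K CL.Fus Subgroup

variable {X : Type*} [Group X] {S E E' : Subgroup X} {φ : ℕ → X} {m m' : ℕ}

structure Co (S : Subgroup X) (φ : ℕ → X) : Prop where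
  mul : ∀ n < 32, ∀ k < 32, φ (mu n k) = φ n * φ k
  inj : ∀ n < 32, ∀ k < 32, φ n = φ k → n = k
  mem : ∀ g, g ∈ S ↔ ∃ n < 32, φ n = g

def Mk (φ : ℕ → X) (E : Subgroup X) (m : ℕ) : Prop := ∀ g, g ∈ E ↔ ∃ n, In m n ∧ φ n = g

def Rep (φ : ℕ → X) (m : ℕ) (α : MulAut E) (τ : ℕ → ℕ) : Prop :=
  ∀ n, In m n → In m (τ n) ∧ autFun α (φ n) = φ (τ n)

def cn (x n : ℕ) : ℕ := mu (mu x n) (iv x)

theorem beq {a b : ℕ} : Nat.beq a b = true ↔ a = b := Nat.beq_eq.to_iff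

theorem Mk.uniq (h : Mk φ E m) (h' : Mk φ E' m) : E = E' := Subgroup.ext fun g => (h g).trans (h' g).symm

theorem Mk.of (h : Mk φ E m) {n : ℕ} (hn : In m n) : φ n ∈ E := (h _).2 ⟨n, hn, rfl⟩

namespace Co

theorem zero (c : Co S φ) : φ 0 = 1 := by
  have := c.mul 0 (by norm_num) 0 (by norm_num)
  exact left_eq_mul.1 this

theorem eq_one (c : Co S φ) {n : ℕ} (hn : n < 32) : φ n = 1 ↔ n = 0 :=
  ⟨fun h => c.inj n hn 0 (by norm_num) (h.trans c.zero.symm), fun h => h ▸ c.zero⟩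

theorem pow (c : Co S φ) {x : ℕ} (hx : x < 32) (k : ℕ) : φ (pw x k) = φ x ^ k := by
  induction k with
  | zero => rw [pw_zero, c.zero, pow_zero]
  | succ k ih => rw [pw_succ, c.mul _ (pw_lt _ _) _ hx, ih, pow_succ]

theorem inv (c : Co S φ) {x : ℕ} (hx : x < 32) : φ (iv x) = (φ x)⁻¹ := by
  have h := beq.1 (allLt_iff.1 (by decide +kernel : allLt (fun x => Nat.beq (mu x (iv x)) 0) 32 = true) x hx)
  have := c.mul x hx (iv x) (fl_lt _ _)
  rw [h, c.zero] at this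
  exact eq_inv_of_mul_eq_one_right this.symm

theorem cj (c : Co S φ) {x n : ℕ} (hx : x < 32) (hn : n < 32) : φ (cn x n) = Fus.cj (φ x) (φ n) := by
  rw [cn, c.mul _ (mu_lt _ _) (iv x) (fl_lt _ _), c.mul _ hx _ hn, c.inv hx]; rfl

theorem ev (c : Co S φ) {x y w : ℕ} (hx : x < 32) (hy : y < 32) (hw : w < 32) (e : ℕ) :
    φ (ev x y w e) = φ x ^ (e % 8) * φ y ^ (e / 8 % 2) * φ w ^ (e / 16) := by
  rw [P32.ev, c.mul _ (mu_lt _ _) _ (pw_lt _ _), c.mul _ (pw_lt _ _) _ (pw_lt _ _), c.pow hx, c.pow hy, c.pow hw]; rfl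

theorem mem_iff (c : Co S φ) (h : Mk φ E m) {n : ℕ} (hn : n < 32) : φ n ∈ E ↔ tb m n = true :=
  ⟨fun h1 => by
    obtain ⟨k, hk, e⟩ := (h _).1 h1
    exact c.inj k hk.1 n hn e ▸ hk.2, fun h1 => h.of ⟨hn, h1⟩⟩

theorem mk_of (c : Co S φ) (hE : E ≤ S) (h : ∀ n < 32, φ n ∈ E ↔ tb m n = true) : Mk φ E m := fun g =>
  ⟨fun hg => by
    obtain ⟨n, hn, rfl⟩ := (c.mem g).1 (hE hg)
    exact ⟨n, ⟨hn, (h n hn).1 hg⟩, rfl⟩, fun ⟨n, hn, e⟩ => e ▸ (h n hn.1).2 hn.2⟩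

theorem in_mu (c : Co S φ) (h : Mk φ E m) {n k : ℕ} (hn : In m n) (hk : In m k) : In m (mu n k) :=
  ⟨mu_lt _ _, (c.mem_iff h (mu_lt _ _)).1 (c.mul n hn.1 k hk.1 ▸ mul_mem (h.of hn) (h.of hk))⟩

theorem card (c : Co S φ) (h : Mk φ E m) : Nat.card E = ((List.range 32).filter (tb m)).length := by
  have e : (E : Set X) = φ '' ((List.range 32).filter (tb m)).toFinset := by
    ext g
    simp only [SetLike.mem_coe, h g, In, Set.mem_image, List.coe_toFinset, Set.mem_setOf_eq, List.mem_filter, List.mem_range]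
  rw [← List.toFinset_card_of_nodup (List.nodup_range.filter _), ← Set.ncard_coe_finset,
    ← Set.InjOn.ncard_image (f := φ), ← e, ← Nat.card_coe_set_eq]
  · rfl
  · intro n hn k hk e
    simp only [Finset.mem_coe, List.mem_toFinset, List.mem_filter, List.mem_range] at hn hk
    exact c.inj n hn.1 k hk.1 e

theorem exists_mask (c : Co S φ) [Finite S] (hS : IsPGroup 2 S) (H : Subgroup X) (hH : H ≤ S) : ∃ m ∈ L, Mk φ H m := by
  have : Fact (Nat.Prime 2) := ⟨Nat.prime_two⟩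
  induction hn : Nat.card H using Nat.strong_induction_on generalizing H with
  | _ N ih =>
  have := finite_of_le hH
  obtain ⟨k, hk⟩ := IsPGroup.iff_card.1 (isPGroup_of_le hS hH)
  rcases k with _ | k
  · refine ⟨1, by decide, c.mk_of hH fun n hn => ?_⟩
    rw [card_eq_one.1 hk, mem_bot, c.eq_one hn]
    have := allLt_iff.1 (by decide +kernel : allLt (fun n => tb 1 n == Nat.beq n 0) 32 = true) n hn
    rw [beq_iff_eq.1 this, beq]
  obtain ⟨K, hK⟩ := Sylow.exists_subgroup_card_pow_prime 2 (G := H) (n := k) (hk ▸ pow_dvd_pow 2 k.le_succ)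
  have hi : K.index = 2 := by
    have := K.card_mul_index
    rw [hK, hk, pow_succ] at this
    exact Nat.eq_of_mul_eq_mul_left (by positivity) this
  obtain ⟨m, hm, mk⟩ := ih (Nat.card (K.map H.subtype)) (by
    rw [card_map_of_injective H.subtype_injective, hK, ← hn, hk]; exact Nat.pow_lt_pow_right (by norm_num) k.lt_succ_self)
    _ ((map_subtype_le K).trans hH) rfl
  obtain ⟨x, hx⟩ : ∃ x, x ∉ K := by
    by_contra h
    push Not at h
    rw [(eq_top_iff' K).2 h, index_top] at hi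
    omega
  obtain ⟨y, hy, e⟩ := (c.mem x).1 (hH x.2)
  have key : ∀ n < 32, φ n ∈ H ↔ qq m y n = true := fun n hn => by
    rw [qq, Bool.or_eq_true, ← c.mem_iff mk hn, ← c.mem_iff mk (mu_lt _ _), c.mul n hn y hy, e]
    constructor
    · intro h
      by_cases h1 : (⟨_, h⟩ : H) ∈ K
      · exact Or.inl ⟨_, h1, rfl⟩
      · exact Or.inr ⟨⟨_, h⟩ * x, (mul_mem_iff_of_index_two hi).2 (iff_of_false h1 hx), rfl⟩
    · rintro (h | h)
      · exact map_subtype_le K h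
      · exact (H.mul_mem_cancel_right x.2).1 (map_subtype_le K h)
  have g := imp_iff.1 (allLt_iff.1 (List.all_eq_true.1 grow m hm) y hy) (allLt_iff.2 fun n hn => imp_iff.2 fun h => by
    rw [← key _ (mu_lt _ _), c.mul y hy n hn, e]
    exact mul_mem x.2 ((key n hn).2 h))
  obtain ⟨m', hm', h'⟩ := List.any_eq_true.1 g
  exact ⟨m', hm', c.mk_of hH fun n hn => by rw [key n hn, beq_iff_eq.1 (allLt_iff.1 h' n hn)]⟩

theorem mk_closure (c : Co S φ) {x y w : ℕ} (hx : In m x) (hy : In m y) (hw : In m w)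
    (h : (tb m 0 && alm m fun n => tb m (iv n) && alm m (fun k => tb m (mu n k)) &&
      anyLt (fun e => Nat.beq (P32.ev x y w e) n) 32) = true) : Mk φ (closure {φ x, φ y, φ w}) m := by
  simp only [Bool.and_eq_true, alm_iff, anyLt_iff, beq] at h
  refine fun g => ⟨fun hg => ?_, ?_⟩
  · induction hg using closure_induction with
    | mem g hg =>
      rcases hg with rfl | rfl | rfl
      exacts [⟨x, hx, rfl⟩, ⟨y, hy, rfl⟩, ⟨w, hw, rfl⟩]
    | one => exact ⟨0, ⟨by norm_num, h.1⟩, c.zero⟩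
    | mul _ _ _ _ h1 h2 =>
      obtain ⟨n, hn, rfl⟩ := h1
      obtain ⟨k, hk, rfl⟩ := h2
      exact ⟨mu n k, ⟨mu_lt _ _, (h.2 n hn).1.2 k hk⟩, c.mul n hn.1 k hk.1⟩
    | inv _ _ h1 =>
      obtain ⟨n, hn, rfl⟩ := h1
      exact ⟨iv n, ⟨fl_lt _ _, (h.2 n hn).1.1⟩, c.inv hn.1⟩
  · rintro ⟨n, hn, rfl⟩
    obtain ⟨e, -, rfl⟩ := (h.2 n hn).2
    rw [c.ev hx.1 hy.1 hw.1]
    exact mul_mem (mul_mem (pow_mem (subset_closure (by simp)) _) (pow_mem (subset_closure (by simp)) _))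
      (pow_mem (subset_closure (by simp)) _)

theorem mk_cj (c : Co S φ) (h : Mk φ E m) {x : ℕ} (hx : x < 32)
    (k : (alm m (fun n => tb m' (cn x n)) && alm m' fun n => tb m (cn x n) && Nat.beq (cn x (cn x n)) n) = true) :
    Mk φ (img (Fus.cj (φ x)) E) m' := by
  simp only [Bool.and_eq_true, alm_iff, beq] at k
  intro g
  rw [(isHomOn_cj E _).mem_img]
  constructor
  · rintro ⟨y, hy, rfl⟩
    obtain ⟨n, hn, rfl⟩ := (h y).1 hy
    exact ⟨cn x n, ⟨mu_lt _ _, k.1 n hn⟩, c.cj hx hn.1⟩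
  · rintro ⟨n, hn, rfl⟩
    exact ⟨_, h.of ⟨mu_lt _ _, (k.2 n hn).1⟩, by rw [← c.cj hx (mu_lt _ _)]; exact congrArg φ (k.2 n hn).2⟩

theorem hom_ev (c : Co S φ) (h : Mk φ E m) {f : X → X} (hf : IsHomOn E f) {g₁ g₂ g₃ x y w : ℕ}
    (h₁ : In m g₁) (h₂ : In m g₂) (h₃ : In m g₃) (hx : x < 32) (hy : y < 32) (hw : w < 32)
    (e₁ : f (φ g₁) = φ x) (e₂ : f (φ g₂) = φ y) (e₃ : f (φ g₃) = φ w) (e : ℕ) :
    f (φ (P32.ev g₁ g₂ g₃ e)) = φ (P32.ev x y w e) := by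
  rw [c.ev h₁.1 h₂.1 h₃.1, c.ev hx hy hw,
    hf.map_mul (mul_mem (pow_mem (h.of h₁) _) (pow_mem (h.of h₂) _)) (pow_mem (h.of h₃) _),
    hf.map_mul (pow_mem (h.of h₁) _) (pow_mem (h.of h₂) _), hf.map_pow (h.of h₁), hf.map_pow (h.of h₂),
    hf.map_pow (h.of h₃), e₁, e₂, e₃]

end Co

namespace Rep
variable {α β : MulAut E} {σ τ : ℕ → ℕ}

theorem ex (h : Mk φ E m) (α : MulAut E) : ∃ τ, Rep φ m α τ := by
  have : ∀ n, ∃ k, In m n → In m k ∧ autFun α (φ n) = φ k := fun n => by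
    by_cases hn : In m n
    · obtain ⟨k, hk, e⟩ := (h _).1 (autFun_mem α (h.of hn))
      exact ⟨k, fun _ => ⟨hk, e.symm⟩⟩
    · exact ⟨0, fun h => absurd h hn⟩
  choose τ hτ using this
  exact ⟨τ, hτ⟩

theorem one (h : Mk φ E m) : Rep φ m (1 : MulAut E) id := fun _ hn => ⟨hn, autFun_one (h.of hn)⟩

theorem mul (h : Mk φ E m) (a : Rep φ m α σ) (b : Rep φ m β τ) : Rep φ m (α * β) fun n => σ (τ n) := fun n hn =>
  ⟨(a _ (b n hn).1).1, by rw [autFun_mul _ _ (h.of hn), (b n hn).2, (a _ (b n hn).1).2]⟩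

theorem pow (h : Mk φ E m) (a : Rep φ m α σ) (k : ℕ) : Rep φ m (α ^ k) (it σ k) := by
  induction k with
  | zero => rw [pow_zero]; exact one h
  | succ k ih => rw [pow_succ']; exact mul (σ := σ) (τ := it σ k) h a ih

theorem congr (a : Rep φ m α σ) (e : ∀ n, In m n → τ n = σ n) : Rep φ m α τ := fun n hn => e n hn ▸ a n hn

theorem ext (h : Mk φ E m) (a : Rep φ m α σ) (b : Rep φ m β τ) (e : ∀ n, In m n → σ n = τ n) : α = β :=
  mulAut_ext_autFun fun x hx => by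
    obtain ⟨n, hn, rfl⟩ := (h x).1 hx
    rw [(a n hn).2, (b n hn).2, e n hn]

theorem eq (c : Co S φ) (a : Rep φ m α σ) (b : Rep φ m α τ) {n : ℕ} (hn : In m n) : σ n = τ n :=
  c.inj _ (a n hn).1.1 _ (b n hn).1.1 ((a n hn).2.symm.trans (b n hn).2)

theorem pow_zero_iff (c : Co S φ) (h : Mk φ E m) (a : Rep φ m α σ) {n : ℕ} (hn : In m n) (k : ℕ) :
    pw (σ n) k = 0 ↔ pw n k = 0 := by
  rw [← c.eq_one (pw_lt _ _), ← c.eq_one (pw_lt _ _), c.pow (a n hn).1.1, c.pow hn.1, ← (a n hn).2,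
    autFun_of_mem α (h.of hn), ← coe_pow, ← map_pow, OneMemClass.coe_eq_one, map_eq_one_iff α α.injective,
    ← OneMemClass.coe_eq_one, coe_pow]

theorem zero_iff (c : Co S φ) (h : Mk φ E m) (a : Rep φ m α σ) {n : ℕ} (hn : In m n) : σ n = 0 ↔ n = 0 := by
  rw [← c.eq_one (a n hn).1.1, ← c.eq_one hn.1, ← (a n hn).2, autFun_of_mem α (h.of hn), OneMemClass.coe_eq_one,
    map_eq_one_iff α α.injective, ← OneMemClass.coe_eq_one]

theorem so (c : Co S φ) (h : Mk φ E m) (a : Rep φ m α σ) {n : ℕ} (hn : In m n) : so (σ n) n = true := by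
  have k : ∀ {a b : ℕ}, (a = 0 ↔ b = 0) → Nat.beq a 0 = Nat.beq b 0 := fun e => Bool.eq_iff_iff.2 (by rwa [beq, beq])
  simp only [P32.so, Bool.and_eq_true, beq_iff_eq]
  exact ⟨⟨k (a.zero_iff c h hn), k (a.pow_zero_iff c h hn 2)⟩, k (a.pow_zero_iff c h hn 4)⟩

theorem map_mu (c : Co S φ) (h : Mk φ E m) (a : Rep φ m α σ) {n k : ℕ} (hn : In m n) (hk : In m k) :
    σ (mu n k) = mu (σ n) (σ k) := by
  refine c.inj _ (a _ (c.in_mu h hn hk)).1.1 _ (mu_lt _ _) ?_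
  rw [← (a _ (c.in_mu h hn hk)).2, c.mul n hn.1 k hk.1, (isHomOn_autFun α).map_mul (h.of hn) (h.of hk), (a n hn).2,
    (a k hk).2, c.mul _ (a n hn).1.1 _ (a k hk).1.1]

end Rep

theorem chk_spec (c : Co S φ) (h : Mk φ E m) {g₁ g₂ g₃ lg : ℕ} {C : (ℕ → ℕ) → Bool}
    (k : chk m g₁ g₂ g₃ lg C = true) (α : MulAut E) : ∃ τ, Rep φ m α τ ∧ C τ = true := by
  simp only [chk, Bool.and_eq_true, alm_iff, imp_iff, force_eq, beq, Nat.blt_eq] at k
  obtain ⟨⟨⟨⟨⟨⟨⟨t1, t2⟩, t3⟩, l1⟩, l2⟩, l3⟩, hl⟩, k⟩ := k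
  obtain ⟨σ, a⟩ := Rep.ex h α
  have i1 : In m g₁ := ⟨l1, t1⟩
  have i2 : In m g₂ := ⟨l2, t2⟩
  have i3 : In m g₃ := ⟨l3, t3⟩
  obtain ⟨k1, k2⟩ := k _ (a _ i1).1 (a.so c h i1) _ (a _ i2).1 (a.so c h i2) _ (a _ i3).1 (a.so c h i3)
  have b := a.congr fun n hn => (k1 n hn).trans (c.inj _ (mu_lt _ _) _ (a n hn).1.1 (by
    rw [← (a n hn).2]
    conv_rhs => rw [← hl n hn]
    exact (c.hom_ev h (isHomOn_autFun α) i1 i2 i3 (a _ i1).1.1 (a _ i2).1.1 (a _ i3).1.1 (a _ i1).2 (a _ i2).2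
      (a _ i3).2 _).symm))
  refine ⟨_, b, k2 ?_⟩
  simp only [val, alm_iff, Bool.and_eq_true, imp_iff, beq]
  exact fun n hn => ⟨⟨⟨(b.zero_iff c h hn).1, b.map_mu c h hn i1⟩, b.map_mu c h hn i2⟩, b.map_mu c h hn i3⟩

theorem eq_one_of_pow {A : Type*} [Group A] {α : A} (h : Odd (orderOf α)) {k : ℕ} (e : α ^ 2 ^ k = 1) : α = 1 :=
  orderOf_eq_one_iff.1 (Nat.Coprime.eq_one_of_dvd (Nat.Coprime.pow_right k (Nat.coprime_two_right.2 h))
    (orderOf_dvd_of_pow_eq_one e))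

/-- the self-centralizing subgroups with an automorphism of odd order -/
theorem classify (c : Co S φ) [Finite S] (hS : IsPGroup 2 S) (hE : E ≤ S) (hc : centralizerIn S E ≤ E)
    {α : MulAut E} (ho : Odd (orderOf α)) (h1 : α ≠ 1) : Mk φ E mA ∨ Mk φ E mA' ∨ Mk φ E mQ := by
  obtain ⟨m, hm, mk⟩ := c.exists_mask hS E hE
  have k := imp_iff.1 (List.all_eq_true.1 selfc m hm) (allLt_iff.2 fun x hx => imp_iff.2 fun h => by
    rw [← c.mem_iff mk hx]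
    refine hc ⟨(c.mem _).2 ⟨x, hx, rfl⟩, fun g hg => ?_⟩
    obtain ⟨n, hn, rfl⟩ := (mk g).1 hg
    rw [← c.mul n hn.1 x hx, ← c.mul x hx n hn.1, beq.1 (alm_iff.1 h n hn)])
  simp only [Bool.or_eq_true, beq, List.any_eq_true] at k
  rcases k with ((rfl | rfl) | rfl) | ⟨t, ht, rfl⟩
  exacts [Or.inl mk, Or.inr (Or.inl mk), Or.inr (Or.inr mk), by
    obtain ⟨τ, a, k⟩ := chk_spec c mk (List.all_eq_true.1 two t ht) α
    exact absurd (eq_one_of_pow ho (k := 3) ((a.pow mk 8).ext mk (Rep.one mk) fun n hn => beq.1 (alm_iff.1 k n hn))) h1]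

end CL.Hen.P32
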